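import Cfsg.Agent.H898.VZ.Gram

/-!
# S4842, toolkit section 6: the certificates for `A_1, A_2, A_3` and products (helper898)

* `Cert g o z m c` : the three numerical identities needed by `gram`; `Cert.prod`;
* `gA1, gA2, gA3` : numbers of double cosets for representatives of the parabolic subgroups
  (`A_1 : ∅, {0}`; `A_2 : ∅, {0}, {0,1}`; `A_3 : ∅, {0}, {0,2}, {0,1}, {0,1,2}`);
* `gram_A1 … gram_A3`, `gram_A11`, `gram_A21` : the value at an elliptic element.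
-/

set_option autoImplicit false
set_option linter.unusedSectionVars false

open Cfsg

namespace Cfsg.Agent.H898.VZ

open Cfsg.Agent.H985.VZ Module

universe u v

/-- the numerical identities -/
structure Cert {ι κ : Type*} [Fintype ι] [DecidableEq ι] [Fintype κ] [DecidableEq κ] (g : ι → ι → ℤ) (o z : ι)
    (m : κ → ι → ℤ) (c : ι → ℚ) : Prop where
  on : ∀ a b, ∑ i, ∑ j, m a i * m b j * g i j = if a = b then 1 else 0
  sq : ∑ a, (∑ i, m a i * g i o) ^ 2 = g o o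
  co : ∀ j, ∑ i, c i * g i j = if j = z then 1 else 0

theorem Cert.prod {ι κ ι' κ' : Type*} [Fintype ι] [DecidableEq ι] [Fintype κ] [DecidableEq κ] [Fintype ι'] [DecidableEq ι']
    [Fintype κ'] [DecidableEq κ'] {g : ι → ι → ℤ} {o z : ι} {m : κ → ι → ℤ} {c : ι → ℚ} {g' : ι' → ι' → ℤ} {o' z' : ι'}
    {m' : κ' → ι' → ℤ} {c' : ι' → ℚ} (h : Cert g o z m c) (h' : Cert g' o' z' m' c') :
    Cert (fun x y : ι × ι' => g x.1 y.1 * g' x.2 y.2) (o, o') (z, z')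
      (fun (a : κ × κ') (x : ι × ι') => m a.1 x.1 * m' a.2 x.2) (fun x => c x.1 * c' x.2) := by
  refine ⟨fun a b => ?_, ?_, fun j => ?_⟩
  · have h1 : ∑ i : ι × ι', ∑ j : ι × ι', m a.1 i.1 * m' a.2 i.2 * (m b.1 j.1 * m' b.2 j.2) * (g i.1 j.1 * g' i.2 j.2) =
        (∑ i, ∑ j, m a.1 i * m b.1 j * g i j) * ∑ i, ∑ j, m' a.2 i * m' b.2 j * g' i j := by
      rw [Fintype.sum_prod_type, Finset.sum_mul_sum]
      refine Finset.sum_congr rfl fun i _ => Finset.sum_congr rfl fun i' _ => ?_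
      rw [Fintype.sum_prod_type, Finset.sum_mul_sum]
      exact Finset.sum_congr rfl fun j _ => Finset.sum_congr rfl fun j' _ => by ring
    rw [h1, h.on, h'.on]
    by_cases e1 : a.1 = b.1 <;> by_cases e2 : a.2 = b.2 <;> simp [e1, e2, Prod.ext_iff]
  · have h1 : ∀ a : κ × κ', (∑ i : ι × ι', m a.1 i.1 * m' a.2 i.2 * (g i.1 o * g' i.2 o')) ^ 2 =
        (∑ i, m a.1 i * g i o) ^ 2 * (∑ i, m' a.2 i * g' i o') ^ 2 := by
      intro a
      rw [← mul_pow, Fintype.sum_prod_type, Finset.sum_mul_sum]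
      congr 1
      exact Finset.sum_congr rfl fun j _ => Finset.sum_congr rfl fun j' _ => by ring
    rw [Finset.sum_congr rfl fun a _ => h1 a, Fintype.sum_prod_type]
    change _ = g o o * g' o' o'
    rw [← h.sq, ← h'.sq, Finset.sum_mul_sum]
  · have h1 : ∑ i : ι × ι', c i.1 * c' i.2 * ((g i.1 j.1 * g' i.2 j.2 : ℤ) : ℚ) =
        (∑ i, c i * g i j.1) * ∑ i, c' i * g' i j.2 := by
      rw [Fintype.sum_prod_type, Finset.sum_mul_sum]
      exact Finset.sum_congr rfl fun j _ => Finset.sum_congr rfl fun j' _ => by push_cast; ring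
    rw [h1, h.co, h'.co]
    by_cases e1 : j.1 = z <;> by_cases e2 : j.2 = z' <;> simp [e1, e2, Prod.ext_iff]

/-- the certificate theorem from a certificate -/
theorem Cert.gram {G : Type u} [Group G] [Finite G] {V : Type v} [AddCommGroup V] [Module ℂ V] [FiniteDimensional ℂ V]
    (σ : Representation ℂ G V) {ι κ : Type*} [Fintype ι] [DecidableEq ι] [Fintype κ] [DecidableEq κ]
    {g : ι → ι → ℤ} {o z : ι} {m : κ → ι → ℤ} {c : ι → ℚ} (h : Cert g o z m c)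
    (P : ι → Subgroup G) (hz : P z = ⊤)
    (hspan : ∀ N : Subrepresentation σ, fx σ (P o) ≤ N.toSubmodule → N.toSubmodule = ⊤)
    (hg : ∀ i j, (Nat.card (DoubleCoset.Quotient (P i : Set G) (P j : Set G)) : ℤ) = g i j)
    {t : G} (ht : ∀ i, i ≠ z → ∀ x, x * t * x⁻¹ ∉ P i) :
    σ.character t = ∑ i, (c i : ℂ) * finrank ℂ (fx σ (P i)) :=
  VZ.gram σ P o z hz hspan g hg m h.on h.sq c h.co ht

/-- `A_1 : ∅, {0}` -/
def gA1 : Fin 2 → Fin 2 → ℤ := ![![2, 1], ![1, 1]]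

/-- the two constituents -/
def mA1 : Fin 2 → Fin 2 → ℤ := ![![0, 1], ![1, -1]]

/-- the coefficients -/
def cA1 : Fin 2 → ℚ := ![-1, 2]

/-- `A_2 : ∅, {0}, {0,1}` -/
def gA2 : Fin 3 → Fin 3 → ℤ := ![![6, 3, 1], ![3, 2, 1], ![1, 1, 1]]

/-- the three constituents -/
def mA2 : Fin 3 → Fin 3 → ℤ := ![![0, 0, 1], ![0, 1, -1], ![1, -2, 1]]

/-- the coefficients -/
def cA2 : Fin 3 → ℚ := ![1, -3, 3]

/-- `A_3 : ∅, {0}, {0,2}, {0,1}, {0,1,2}` -/
def gA3 : Fin 5 → Fin 5 → ℤ :=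
  ![![24, 12, 6, 4, 1], ![12, 7, 4, 3, 1], ![6, 4, 3, 2, 1], ![4, 3, 2, 2, 1], ![1, 1, 1, 1, 1]]

/-- the five constituents -/
def mA3 : Fin 5 → Fin 5 → ℤ :=
  ![![0, 0, 0, 0, 1], ![0, 0, 0, 1, -1], ![0, 0, 1, -1, 0], ![0, 1, -1, -1, 1], ![1, -3, 1, 2, -1]]

/-- the coefficients -/
def cA3 : Fin 5 → ℚ := ![-1, 4, -2, -4, 4]

theorem cert_A1 : Cert gA1 0 1 mA1 cA1 :=
  ⟨by decide, by decide, fun j => by fin_cases j <;> simp [cA1, gA1, Fin.sum_univ_succ] <;> norm_num⟩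

theorem cert_A2 : Cert gA2 0 2 mA2 cA2 :=
  ⟨by decide, by decide, fun j => by fin_cases j <;> simp [cA2, gA2, Fin.sum_univ_succ] <;> norm_num⟩

theorem cert_A3 : Cert gA3 0 4 mA3 cA3 :=
  ⟨by decide, by decide, fun j => by fin_cases j <;> simp [cA3, gA3, Fin.sum_univ_succ] <;> norm_num⟩

section

variable {G : Type u} [Group G] [Finite G] {V : Type v} [AddCommGroup V] [Module ℂ V] [FiniteDimensional ℂ V]
  (σ : Representation ℂ G V)

theorem gram_A1 (P : Fin 2 → Subgroup G) (hz : P 1 = ⊤)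
    (hspan : ∀ N : Subrepresentation σ, fx σ (P 0) ≤ N.toSubmodule → N.toSubmodule = ⊤)
    (hg : ∀ i j, (Nat.card (DoubleCoset.Quotient (P i : Set G) (P j : Set G)) : ℤ) = gA1 i j)
    {t : G} (ht : ∀ i, i ≠ 1 → ∀ x, x * t * x⁻¹ ∉ P i) :
    σ.character t = 2 * finrank ℂ (fx σ (P 1)) - finrank ℂ (fx σ (P 0)) := by
  rw [cert_A1.gram σ P hz hspan hg ht]
  simp only [Fin.sum_univ_succ, cA1]
  simp
  ring

theorem gram_A2 (P : Fin 3 → Subgroup G) (hz : P 2 = ⊤)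
    (hspan : ∀ N : Subrepresentation σ, fx σ (P 0) ≤ N.toSubmodule → N.toSubmodule = ⊤)
    (hg : ∀ i j, (Nat.card (DoubleCoset.Quotient (P i : Set G) (P j : Set G)) : ℤ) = gA2 i j)
    {t : G} (ht : ∀ i, i ≠ 2 → ∀ x, x * t * x⁻¹ ∉ P i) :
    σ.character t = finrank ℂ (fx σ (P 0)) - 3 * finrank ℂ (fx σ (P 1)) + 3 * finrank ℂ (fx σ (P 2)) := by
  rw [cert_A2.gram σ P hz hspan hg ht]
  simp only [Fin.sum_univ_succ, cA2]
  simp
  ring

theorem gram_A3 (P : Fin 5 → Subgroup G) (hz : P 4 = ⊤)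
    (hspan : ∀ N : Subrepresentation σ, fx σ (P 0) ≤ N.toSubmodule → N.toSubmodule = ⊤)
    (hg : ∀ i j, (Nat.card (DoubleCoset.Quotient (P i : Set G) (P j : Set G)) : ℤ) = gA3 i j)
    {t : G} (ht : ∀ i, i ≠ 4 → ∀ x, x * t * x⁻¹ ∉ P i) :
    σ.character t = 4 * finrank ℂ (fx σ (P 1)) + 4 * finrank ℂ (fx σ (P 4)) - finrank ℂ (fx σ (P 0)) -
      2 * finrank ℂ (fx σ (P 2)) - 4 * finrank ℂ (fx σ (P 3)) := by
  rw [cert_A3.gram σ P hz hspan hg ht]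
  simp only [Fin.sum_univ_succ, cA3]
  simp
  ring

theorem gram_A11 (P : Fin 2 × Fin 2 → Subgroup G) (hz : P (1, 1) = ⊤)
    (hspan : ∀ N : Subrepresentation σ, fx σ (P (0, 0)) ≤ N.toSubmodule → N.toSubmodule = ⊤)
    (hg : ∀ i j, (Nat.card (DoubleCoset.Quotient (P i : Set G) (P j : Set G)) : ℤ) = gA1 i.1 j.1 * gA1 i.2 j.2)
    {t : G} (ht : ∀ i, i ≠ (1, 1) → ∀ x, x * t * x⁻¹ ∉ P i) :
    σ.character t = 4 * finrank ℂ (fx σ (P (1, 1))) - 2 * finrank ℂ (fx σ (P (1, 0))) -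
      2 * finrank ℂ (fx σ (P (0, 1))) + finrank ℂ (fx σ (P (0, 0))) := by
  rw [(cert_A1.prod cert_A1).gram σ P hz hspan hg ht]
  simp only [Fintype.sum_prod_type, Fin.sum_univ_succ, cA1]
  simp
  ring

theorem gram_A21 (P : Fin 3 × Fin 2 → Subgroup G) (hz : P (2, 1) = ⊤)
    (hspan : ∀ N : Subrepresentation σ, fx σ (P (0, 0)) ≤ N.toSubmodule → N.toSubmodule = ⊤)
    (hg : ∀ i j, (Nat.card (DoubleCoset.Quotient (P i : Set G) (P j : Set G)) : ℤ) = gA2 i.1 j.1 * gA1 i.2 j.2)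
    {t : G} (ht : ∀ i, i ≠ (2, 1) → ∀ x, x * t * x⁻¹ ∉ P i) :
    σ.character t = 2 * (finrank ℂ (fx σ (P (0, 1))) - 3 * finrank ℂ (fx σ (P (1, 1))) + 3 * finrank ℂ (fx σ (P (2, 1)))) -
      (finrank ℂ (fx σ (P (0, 0))) - 3 * finrank ℂ (fx σ (P (1, 0))) + 3 * finrank ℂ (fx σ (P (2, 0)))) := by
  rw [(cert_A2.prod cert_A1).gram σ P hz hspan hg ht]
  simp only [Fintype.sum_prod_type, Fin.sum_univ_succ, cA1, cA2]
  simp
  ring

end

end Cfsg.Agent.H898.VZ
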